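import Cfsg.Agent.Lib.Blk89.Codegree
import Cfsg.Agent.Lib.Char.IndRep
import Cfsg.Agent.Lib.Char.Clifford
import Cfsg.Agent.Lib.Char.Conj

/-!
# Faithful irreducible characters of prime codegree
-/

set_option autoImplicit false

namespace Cfsg.Agent.Lib.Blk89.CodPrime

open Cfsg Module
open Cfsg.Agent.Lib.Char.Basic Cfsg.Agent.Lib.Char.Ortho Cfsg.Agent.Lib.Char.Complete
open Cfsg.Agent.Lib.Char.Degree Cfsg.Agent.Lib.Char.Linear Cfsg.Agent.Lib.Blk89.Basic
open Cfsg.Agent.Lib.Char.Induced Cfsg.Agent.Lib.Char.IndRep Cfsg.Agent.Lib.Char.Clifford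
open Cfsg.Agent.Lib.Char.Conj
open scoped ComplexConjugate

universe u

variable {G : Type u} [Group G] [Finite G]

/-- The basic structure: a faithful irreducible character of prime codegree `p` and of degree
`≠ 1`: the Sylow `p`-subgroup is normal of order `p` and self-centralizing. -/
theorem exists_normal_selfCentralizing {χ : G → ℂ} (hχ : IsIrrCharacter G χ)
    (hfaith : ∀ g : G, χ g = χ 1 → g = 1) {p : ℕ} (hp : p.Prime)
    (hcod : Nat.card G = p * charDegree χ) (hd : charDegree χ ≠ 1) :
    ∃ P : Subgroup G, P.Normal ∧ Nat.card P = p ∧ Subgroup.centralizer (P : Set G) ≤ P ∧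
      P.index = charDegree χ ∧ ¬ p ∣ charDegree χ := by
  classical
  cases nonempty_fintype G
  have : Finite (IrrCharacter G) := finite_irrCharacter
  have := Fintype.ofFinite (IrrCharacter G)
  have := Fact.mk hp
  have hd0 : 0 < charDegree χ := charDegree_pos hχ
  have hχc := isCharacter_of_isIrrCharacter hχ
  have hχne : (⟨χ, hχ⟩ : IrrCharacter G) ≠ oneIrr G := by
    intro h
    apply hd
    have h1 : χ = fun _ => 1 := congrArg Subtype.val h
    apply charDegree_eq_of_eq_natCast
    rw [h1]
    simp
  -- `d < p`
  have hdp : charDegree χ < p := by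
    have h1 := sum_charDegree_sq (G := G)
    rw [← Finset.add_sum_erase _ _ (Finset.mem_univ (⟨χ, hχ⟩ : IrrCharacter G))] at h1
    have h2 : charDegree (((oneIrr G : IrrCharacter G)) : G → ℂ) ^ 2 ≤
        ∑ i ∈ Finset.univ.erase (⟨χ, hχ⟩ : IrrCharacter G), charDegree (i : G → ℂ) ^ 2 :=
      Finset.single_le_sum (f := fun i : IrrCharacter G => charDegree (i : G → ℂ) ^ 2)
        (fun _ _ => Nat.zero_le _) (Finset.mem_erase.mpr ⟨hχne.symm, Finset.mem_univ _⟩)
    have h3 : charDegree (((oneIrr G : IrrCharacter G)) : G → ℂ) = 1 := by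
      apply charDegree_eq_of_eq_natCast
      simp
    rw [h3] at h2
    simp only at h1
    rw [hcod] at h1
    by_contra hle
    push Not at hle
    have h4 : p * charDegree χ ≤ charDegree χ ^ 2 := by
      rw [pow_two]
      exact Nat.mul_le_mul_right _ hle
    omega
  have hpd : ¬ p ∣ charDegree χ := fun h => absurd (Nat.le_of_dvd hd0 h) (by omega)
  -- the Sylow subgroup
  obtain ⟨P⟩ : Nonempty (Sylow p G) := inferInstance
  have hv : (Nat.card G).factorization p = 1 := by
    rw [hcod, Nat.factorization_mul hp.ne_zero hd0.ne']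
    simp [hp.factorization_self, Nat.factorization_eq_zero_of_not_dvd hpd]
  have hcardP : Nat.card (P : Subgroup G) = p := by
    rw [P.card_eq_multiplicity, hv, pow_one]
  have hindex : (P : Subgroup G).index = charDegree χ := by
    have h1 := (P : Subgroup G).card_mul_index
    rw [hcardP, hcod] at h1
    exact Nat.eq_of_mul_eq_mul_left hp.pos h1
  have hnormal : (P : Subgroup G).Normal := by
    have h1 : Nat.card (Sylow p G) ∣ (P : Subgroup G).index := P.card_dvd_index
    have h2 := card_sylow_modEq_one p G
    have h3 : Nat.card (Sylow p G) ≤ charDegree χ := Nat.le_of_dvd hd0 (hindex ▸ h1)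
    have h4 : Nat.card (Sylow p G) = 1 := by
      have h5 : Nat.card (Sylow p G) % p = 1 % p := h2
      rw [Nat.mod_eq_of_lt (by omega), Nat.mod_eq_of_lt hp.one_lt] at h5
      exact h5
    have : Subsingleton (Sylow p G) := (Nat.card_eq_one_iff_unique.mp h4).1
    exact Sylow.normal_of_subsingleton P
  -- the constituent
  set N : Subgroup G := (P : Subgroup G) with hN
  have hres : IsClassFunction N (fun n : N => χ n) :=
    isClassFunction_of_isCharacter (isCharacter_restrict N hχc)
  have hres0 : (fun n : N => χ n) ≠ 0 := by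
    intro h
    have h1 := congrFun h 1
    simp only [Subgroup.coe_one, Pi.zero_apply] at h1
    exact irr_one_ne_zero hχ h1
  obtain ⟨lam, hlam, hin⟩ := exists_irr_constituent hres hres0
  have hNcomm : ∀ a b : N, a * b = b * a := by
    have hcyc : IsCyclic N := isCyclic_of_prime_card hcardP
    intro a b
    obtain ⟨g, hg⟩ := hcyc.exists_generator
    obtain ⟨i, hi⟩ := Subgroup.mem_zpowers_iff.mp (hg a)
    obtain ⟨j, hj⟩ := Subgroup.mem_zpowers_iff.mp (hg b)
    rw [← hi, ← hj, ← zpow_add, ← zpow_add, add_comm]
  have hlam1 : lam 1 = 1 := isIrr_deg_one_of_comm hNcomm hlam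
  have hind : χ = indFun N lam := by
    have h1 : classInner (indFun N lam) χ ≠ 0 := by
      rw [classInner_indFun_left _ _ _ (isClassFunction_of_isIrrCharacter hχ)]
      exact classInner_ne_zero_comm hin
    have h2 := eq_of_constituent_of_deg_le (isCharacter_indFun _ (isCharacter_of_isIrrCharacter hlam)) hχ h1
      (a := charDegree χ) (b := charDegree χ)
      (by rw [indFun_one, hindex, hlam1]; simp)
      (charDegree_natCast hχc).symm le_rfl
    exact h2.symm
  -- inertia
  have hinert := card_inertia_eq hnormal hlam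
  rw [← hind, classInner_self_of_isIrr hχ, mul_one] at hinert
  have hinert2 : Nat.card {g : G // conjOn hnormal g lam = lam} = p := by
    have : (Nat.card N : ℂ) = (Nat.card {g : G // conjOn hnormal g lam = lam} : ℂ) := hinert
    have h2 : Nat.card N = Nat.card {g : G // conjOn hnormal g lam = lam} := by exact_mod_cast this
    rw [← h2]
    exact hcardP
  have hcent : Subgroup.centralizer (N : Set G) ≤ N := by
    intro c hc
    by_contra hcN
    -- `N ∪ {c}` lies in the inertia
    have hfix : ∀ x : G, (x ∈ N ∨ x ∈ Subgroup.centralizer (N : Set G)) → conjOn hnormal x lam = lam := by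
      rintro x (hx | hx)
      · exact conjOn_of_mem hnormal (isClassFunction_of_isIrrCharacter hlam) hx
      · funext h
        rw [conjOn_apply]
        congr 1
        apply Subtype.ext
        have := Subgroup.mem_centralizer_iff.mp hx h h.2
        simp only
        rw [← this, mul_assoc, mul_inv_cancel, mul_one]
    let f : N ⊕ Unit → {g : G // conjOn hnormal g lam = lam} := fun s =>
      match s with
      | Sum.inl x => ⟨x, hfix x (Or.inl x.2)⟩
      | Sum.inr _ => ⟨c, hfix c (Or.inr hc)⟩
    have hf : Function.Injective f := by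
      rintro (x | _) (y | _) hxy
      · have : (x : G) = y := congrArg (fun z : {g : G // conjOn hnormal g lam = lam} => (z : G)) hxy
        rw [Subtype.ext this]
      · have : (x : G) = c := congrArg (fun z : {g : G // conjOn hnormal g lam = lam} => (z : G)) hxy
        exact absurd (this ▸ x.2) hcN
      · have : c = (y : G) := congrArg (fun z : {g : G // conjOn hnormal g lam = lam} => (z : G)) hxy
        exact absurd (this.symm ▸ y.2) hcN
      · rfl
    have h3 := Nat.card_le_card_of_injective f hf
    rw [hinert2, Nat.card_sum, hcardP] at h3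
    simp at h3
  exact ⟨N, hnormal, hcardP, hcent, hindex, hpd⟩

end Cfsg.Agent.Lib.Blk89.CodPrime
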