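import Mathlib
import Cfsg.Prelude.Def_Transfer
import Cfsg.Agent.Lib.Solvable.Basic
import Cfsg.Agent.Lib.Solvable.Hall

/-!
# Groups whose `p'`-subgroups are abelian of exponent dividing `p - 1`: basics

`PAb p G` says that every subgroup of `G` of order prime to `p` is abelian of exponent dividing
`p - 1`.  The property passes to subgroups and quotients.  If `X` is solvable with `PAb p X` and
generated by its `p'`-elements then its Sylow `p`-subgroups are normal.
-/

set_option autoImplicit false
set_option linter.style.haveILetI false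

namespace Cfsg.Agent.Lib.Blk89.PAb0

open Cfsg Subgroup

universe u

variable {p : ℕ}

/-- Every subgroup of order prime to `p` is abelian of exponent dividing `p - 1`. -/
def PAb (p : ℕ) (G : Type*) [Group G] : Prop :=
  ∀ H : Subgroup G, (Nat.card ↥H).Coprime p → IsMulCommutative ↥H ∧ ∀ x ∈ H, x ^ (p - 1) = 1

section basic

variable {G : Type*} [Group G]

lemma PAb.comm (h : PAb p G) {H : Subgroup G} (hH : (Nat.card H).Coprime p) {a b : G}
    (ha : a ∈ H) (hb : b ∈ H) : a * b = b * a := by
  have h1 := (h H hH).1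
  have h2 : (⟨a, ha⟩ : H) * ⟨b, hb⟩ = ⟨b, hb⟩ * ⟨a, ha⟩ := h1.is_comm.comm _ _
  exact congrArg Subtype.val h2

lemma PAb.exp (h : PAb p G) {H : Subgroup G} (hH : (Nat.card H).Coprime p) {x : G}
    (hx : x ∈ H) : x ^ (p - 1) = 1 := (h H hH).2 x hx

lemma PAb.subgroup (h : PAb p G) (X : Subgroup G) : PAb p X := by
  intro H hH
  have hc : (Nat.card (H.map X.subtype)).Coprime p := by
    rwa [Subgroup.card_map_of_injective X.subtype_injective]
  refine ⟨⟨⟨fun a b => ?_⟩⟩, fun x hx => ?_⟩
  · apply Subtype.ext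
    apply Subtype.ext
    exact h.comm hc ⟨_, a.2, rfl⟩ ⟨_, b.2, rfl⟩
  · apply Subtype.ext
    exact h.exp hc ⟨x, hx, rfl⟩

lemma PAb.of_injective {G' : Type*} [Group G'] (h : PAb p G) (f : G' →* G)
    (hf : Function.Injective f) : PAb p G' := by
  intro H hH
  have hc : (Nat.card (H.map f)).Coprime p := by
    rwa [Subgroup.card_map_of_injective hf]
  refine ⟨⟨⟨fun a b => ?_⟩⟩, fun x hx => ?_⟩
  · apply Subtype.ext
    apply hf
    simp only [Subgroup.coe_mul, map_mul]
    exact h.comm hc ⟨_, a.2, rfl⟩ ⟨_, b.2, rfl⟩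
  · apply hf
    rw [map_pow, map_one]
    exact h.exp hc ⟨x, hx, rfl⟩

/-- A surjection onto a `p'`-group: a `p'`-subgroup of the source maps onto the target. -/
theorem exists_pprime_lift {G' : Type*} [Group G'] [Finite G] [hp : Fact p.Prime] (f : G →* G')
    (hf : Function.Surjective f) (hc : (Nat.card G').Coprime p) :
    ∃ Y : Subgroup G, (Nat.card Y).Coprime p ∧ ∀ g' : G', ∃ y ∈ Y, f y = g' := by
  classical
  have hpp := hp.out
  have hcard0 : Nat.card G ≠ 0 := Nat.card_pos.ne'
  set N := f.ker with hN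
  obtain ⟨S⟩ : Nonempty (Sylow p N) := inferInstance
  set Q : Subgroup G := (S : Subgroup N).map N.subtype with hQ
  have hfratt : normalizer (Q : Set G) ⊔ N = ⊤ := S.normalizer_sup_eq_top
  set M : Subgroup G := normalizer (Q : Set G) with hM
  have hQN : Q ≤ N := by
    rintro _ ⟨x, -, rfl⟩
    exact x.2
  have hQp : IsPGroup p Q := S.isPGroup'.map _
  have hcardQ : Nat.card Q = Nat.card S := Subgroup.card_map_of_injective N.subtype_injective
  -- `p ∤ |G : Q|`
  have hG' : Nat.card G' = f.ker.index := by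
    rw [Subgroup.index_ker]
    rw [MonoidHom.range_eq_top.2 hf]
    exact Nat.card_congr (Equiv.Set.univ _).symm
  have hidx : Q.index = (S : Subgroup N).index * Nat.card G' := by
    have h1 := Q.card_mul_index
    have h2 := N.card_mul_index
    have h3 := (S : Subgroup N).card_mul_index
    rw [hG']
    have h4 : Nat.card S * Q.index = Nat.card S * ((S : Subgroup N).index * N.index) := by
      calc Nat.card S * Q.index = Nat.card Q * Q.index := by rw [hcardQ]
        _ = Nat.card N * N.index := by rw [h1, h2]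
        _ = Nat.card S * (S : Subgroup N).index * N.index := by rw [h3]
        _ = _ := by ring
    exact Nat.eq_of_mul_eq_mul_left Nat.card_pos h4
  have hQidx : ¬ p ∣ Q.index := by
    rw [hidx, hpp.dvd_mul]
    rintro (h | h)
    · exact S.not_dvd_index h
    · exact (hpp.coprime_iff_not_dvd.1 hc.symm) h
  have hQM : Q ≤ M := le_normalizer
  have hQrel : ¬ p ∣ Q.relIndex M := fun h => hQidx (by
    rw [← Subgroup.relIndex_mul_index hQM]
    exact h.trans (dvd_mul_right _ _))
  -- the complement in the normalizer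
  have hnormal : (Q.subgroupOf M).Normal := Subgroup.normal_in_normalizer
  have hcop : (Nat.card (Q.subgroupOf M)).Coprime (Q.subgroupOf M).index := by
    have e1 : Nat.card (Q.subgroupOf M) = Nat.card Q :=
      Nat.card_congr (Subgroup.subgroupOfEquivOfLe hQM).toEquiv
    rw [e1]
    obtain ⟨k, hk⟩ := IsPGroup.iff_card.1 hQp
    rw [hk]
    exact Nat.Coprime.pow_left _ ((hpp.coprime_iff_not_dvd).2 hQrel)
  obtain ⟨Y', hY'⟩ := Subgroup.exists_right_complement'_of_coprime hcop
  refine ⟨Y'.map M.subtype, ?_, ?_⟩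
  · rw [Subgroup.card_map_of_injective M.subtype_injective, ← hY'.symm.index_eq_card]
    exact ((hpp.coprime_iff_not_dvd).2 hQrel).symm
  · intro g'
    obtain ⟨g, rfl⟩ := hf g'
    have hg : g ∈ ((M ⊔ N : Subgroup G) : Set G) := by rw [hfratt]; trivial
    rw [Subgroup.mul_normal] at hg
    obtain ⟨m, hm, n, hn, rfl⟩ := hg
    obtain ⟨⟨⟨q, hq⟩, ⟨y, hy⟩⟩, hqy⟩ := hY'.2 ⟨m, hm⟩
    have hqy' : (q : G) * (y : G) = m := congrArg Subtype.val hqy
    refine ⟨y, ⟨y, hy, rfl⟩, ?_⟩
    have hq' : f q = 1 := hQN hq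
    have hn' : f n = 1 := hn
    rw [map_mul, ← hqy', map_mul, hq', hn', one_mul, mul_one]

/-- **Quotients.** -/
theorem PAb.of_surjective {G' : Type*} [Group G'] [Finite G] [Fact p.Prime] (h : PAb p G)
    (f : G →* G') (hf : Function.Surjective f) : PAb p G' := by
  intro H' hH'
  set T := H'.comap f with hT
  have hs : Function.Surjective (f.subgroupComap H') :=
    f.subgroupComap_surjective_of_surjective H' hf
  obtain ⟨Y, hY, hYs⟩ := exists_pprime_lift (f.subgroupComap H') hs hH'
  have hY1 : (Nat.card (Y.map T.subtype)).Coprime p := by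
    rwa [Subgroup.card_map_of_injective T.subtype_injective]
  have hlift : ∀ x : H', ∃ y ∈ Y.map T.subtype, f y = x := by
    intro x
    obtain ⟨y, hy, hyx⟩ := hYs x
    exact ⟨y, ⟨y, hy, rfl⟩, congrArg Subtype.val hyx⟩
  refine ⟨⟨⟨fun a b => ?_⟩⟩, fun x hx => ?_⟩
  · obtain ⟨u, hu, hua⟩ := hlift a
    obtain ⟨v, hv, hvb⟩ := hlift b
    apply Subtype.ext
    simp only [Subgroup.coe_mul]
    rw [← hua, ← hvb, ← map_mul, ← map_mul, h.comm hY1 hu hv]
  · obtain ⟨u, hu, hua⟩ := hlift ⟨x, hx⟩
    have : x = f u := hua.symm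
    rw [this, ← map_pow, h.exp hY1 hu, map_one]

end basic

section commute

variable {G : Type*} [Group G] [Finite G]

/-- `H N` has order prime to `p` when `H`, `N` do, `N` normal. -/
lemma coprime_card_sup (H N : Subgroup G) [N.Normal] (hH : (Nat.card H).Coprime p)
    (hN : (Nat.card N).Coprime p) : (Nat.card (H ⊔ N : Subgroup G)).Coprime p := by
  have h := Cfsg.Agent.Lib.Solvable.Hall.card_sup_mul_card_inf H N
  have h2 : (Nat.card H * Nat.card N).Coprime p := Nat.Coprime.mul_left hH hN
  rw [← h] at h2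
  exact Nat.Coprime.coprime_dvd_left (dvd_mul_right _ _) h2

lemma coprime_card_zpowers {x : G} (hx : (orderOf x).Coprime p) :
    (Nat.card (zpowers x)).Coprime p := by
  rwa [Nat.card_zpowers]

/-- A `p'`-element commutes with a normal `p'`-subgroup. -/
lemma PAb.commute_of_normal (h : PAb p G) (M : Subgroup G) [M.Normal]
    (hM : (Nat.card M).Coprime p) {x : G} (hx : (orderOf x).Coprime p) {m : G} (hm : m ∈ M) :
    x * m = m * x :=
  h.comm (coprime_card_sup (zpowers x) M (coprime_card_zpowers hx) hM)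
    (mem_sup_left (mem_zpowers x)) (mem_sup_right hm)

/-- A `p'`-element commutes with a `p'`-subgroup it normalizes. -/
lemma PAb.commute_of_mem_normalizer (h : PAb p G) {M : Subgroup G}
    (hM : (Nat.card M).Coprime p) {x : G} (hxn : x ∈ normalizer (M : Set G))
    (hx : (orderOf x).Coprime p) {m : G} (hm : m ∈ M) : x * m = m * x := by
  have hMn : M ≤ normalizer (M : Set G) := le_normalizer
  have h1 : (M.subgroupOf (normalizer (M : Set G))).Normal := Subgroup.normal_in_normalizer
  have h2 : (Nat.card (M.subgroupOf (normalizer (M : Set G)))).Coprime p := by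
    rwa [Nat.card_congr (Subgroup.subgroupOfEquivOfLe hMn).toEquiv]
  have h3 : (orderOf (⟨x, hxn⟩ : normalizer (M : Set G))).Coprime p := by
    rwa [Subgroup.orderOf_mk]
  have h4 := (h.subgroup (normalizer (M : Set G))).commute_of_normal _ h2 h3
    (m := ⟨m, hMn hm⟩) (by rw [Subgroup.mem_subgroupOf]; exact hm)
  exact congrArg Subtype.val h4

end commute

section residual

variable {X : Type*} [Group X]

lemma mem_pResidual {x : X} (hx : (orderOf x).Coprime p) : x ∈ pResidual p X :=
  Subgroup.subset_closure hx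

instance pResidual_normal : (pResidual p X).Normal := by
  rw [pResidual]
  refine ⟨fun n hn g => ?_⟩
  induction hn using Subgroup.closure_induction with
  | mem x hx =>
    apply Subgroup.subset_closure
    have : g * x * g⁻¹ = MulAut.conj g x := rfl
    rw [Set.mem_setOf_eq, this, MulEquiv.orderOf_eq]
    exact hx
  | one => simp
  | mul x y _ _ hx hy =>
    have : g * (x * y) * g⁻¹ = (g * x * g⁻¹) * (g * y * g⁻¹) := by group
    rw [this]
    exact mul_mem hx hy
  | inv x _ hx =>
    have : g * x⁻¹ * g⁻¹ = (g * x * g⁻¹)⁻¹ := by group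
    rw [this]
    exact inv_mem hx

lemma pResidual_map_eq_top {Y : Type*} [Group Y] [Finite X] (f : X →* Y)
    (hf : Function.Surjective f)
    (h : pResidual p X = ⊤) : pResidual p Y = ⊤ := by
  rw [eq_top_iff]
  intro y hyt
  clear hyt
  obtain ⟨x, rfl⟩ := hf y
  have hx : x ∈ pResidual p X := by rw [h]; trivial
  rw [pResidual] at hx
  induction hx using Subgroup.closure_induction with
  | mem x hx =>
    apply mem_pResidual
    exact Nat.Coprime.coprime_dvd_left (orderOf_map_dvd f x) hx
  | one => simp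
  | mul x y _ _ hx hy =>
    rw [map_mul]
    exact mul_mem hx hy
  | inv x _ hx =>
    rw [map_inv]
    exact inv_mem hx

/-- The residual is generated by its own `p'`-elements. -/
lemma pResidual_pResidual : pResidual p (pResidual p X) = ⊤ := by
  rw [eq_top_iff]
  have h1 := Subgroup.closure_closure_coe_preimage (k := {g : X | Nat.Coprime (orderOf g) p})
  have h2 : closure (((↑) : pResidual p X → X) ⁻¹' {g : X | Nat.Coprime (orderOf g) p}) ≤
      pResidual p (pResidual p X) := by
    apply Subgroup.closure_mono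
    intro x hx
    rw [Set.mem_setOf_eq, ← Subgroup.orderOf_coe]
    exact hx
  exact le_trans (le_of_eq h1.symm) h2

end residual

section lemmaC

variable [hp : Fact p.Prime]

/-- **Lemma c.** In a solvable group with `PAb` generated by `p'`-elements, every element of
`p`-power order lies in each Sylow `p`-subgroup. -/
theorem mem_sylow_of_pow_eq_one : ∀ (n : ℕ) {X : Type u} [Group X] [Finite X] [Group.IsSolvable X],
    Nat.card X = n → PAb p X → pResidual p X = ⊤ → ∀ (P : Sylow p X) (a : X) (k : ℕ),
    a ^ p ^ k = 1 → a ∈ P := by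
  intro n
  induction n using Nat.strong_induction_on with
  | _ n ih =>
  intro X _ _ _ hn hX hgen P a k hak
  classical
  have hpp := hp.out
  by_cases hsub : Subsingleton X
  · rw [Subsingleton.elim a 1]
    exact one_mem _
  rw [not_subsingleton_iff_nontrivial] at hsub
  obtain ⟨M, r, hr, hMin, hMc, hMe⟩ := Cfsg.Agent.Lib.Solvable.Basic.exists_normal_elemAbelian (G := X)
  have hMn : M.Normal := hMin.1
  have hM1 : M ≠ ⊥ := hMin.2.1
  set f := QuotientGroup.mk' M with hf
  have hfs : Function.Surjective f := QuotientGroup.mk'_surjective M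
  have hlt : Nat.card (X ⧸ M) < n := by
    rw [← hn, Subgroup.card_eq_card_quotient_mul_card_subgroup M]
    have h1 : 1 < Nat.card M := by
      have : Nontrivial M := (Subgroup.nontrivial_iff_ne_bot M).2 hM1
      exact Finite.one_lt_card
    exact lt_mul_of_one_lt_right Nat.card_pos h1
  have hIH := ih _ hlt (X := X ⧸ M) rfl (hX.of_surjective f hfs) (pResidual_map_eq_top f hfs hgen)
    (P.mapSurjective hfs) (f a) k (by rw [← map_pow, hak, map_one])
  obtain ⟨u, hu, hua⟩ : ∃ u ∈ (P : Subgroup X), f u = f a := by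
    have : f a ∈ (P : Subgroup X).map f := hIH
    obtain ⟨u, hu, hua⟩ := this
    exact ⟨u, hu, hua⟩
  have hm : u⁻¹ * a ∈ M := by
    have : f (u⁻¹ * a) = 1 := by rw [map_mul, map_inv, hua, inv_mul_cancel]
    rwa [← MonoidHom.mem_ker, QuotientGroup.ker_mk'] at this
  set m := u⁻¹ * a with hmdef
  have haum : a = u * m := by rw [hmdef]; group
  by_cases hrp : r = p
  · -- `M` is a normal `p`-subgroup
    subst hrp
    have hMp : IsPGroup r M := Cfsg.Agent.Lib.Solvable.Basic.isPGroup_of_pow_eq_one hMe
    have hMP : M ≤ P := by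
      have h1 : IsPGroup r ((P : Subgroup X) ⊔ M : Subgroup X) :=
        IsPGroup.to_sup_of_normal_right P.isPGroup' hMp
      have h2 := P.is_maximal' h1 le_sup_left
      rw [← h2]
      exact le_sup_right
    rw [haum]
    exact mul_mem hu (hMP hm)
  · -- `M` is a central `p'`-subgroup
    have hMp : IsPGroup r M := Cfsg.Agent.Lib.Solvable.Basic.isPGroup_of_pow_eq_one hMe
    have hMc' : (Nat.card M).Coprime p := by
      haveI : Fact r.Prime := ⟨hr⟩
      obtain ⟨e, he⟩ := IsPGroup.iff_card.1 hMp
      rw [he]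
      exact Nat.Coprime.pow_left _ ((Nat.coprime_primes hr hpp).2 hrp)
    have hcentral : ∀ g : X, g * m = m * g := by
      intro g
      have hg : g ∈ closure {g : X | Nat.Coprime (orderOf g) p} := by
        change g ∈ pResidual p X
        rw [hgen]; trivial
      induction hg using Subgroup.closure_induction with
      | mem x hx => exact hX.commute_of_normal M hMc' hx hm
      | one => simp
      | mul x y _ _ hx hy =>
        rw [mul_assoc, hy, ← mul_assoc, hx, mul_assoc]
      | inv x _ hx =>
        rw [inv_mul_eq_iff_eq_mul, ← mul_assoc, hx, mul_assoc, mul_inv_cancel, mul_one]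
    obtain ⟨k', hk'⟩ := P.isPGroup' ⟨u, hu⟩
    have hk'' : u ^ p ^ k' = 1 := congrArg Subtype.val hk'
    have hcomm : Commute u m := hcentral u
    have h1 : m ^ p ^ (k + k') = 1 := by
      have e1 : a ^ p ^ (k + k') = 1 := by
        rw [pow_add, pow_mul, hak, one_pow]
      rw [haum, hcomm.mul_pow] at e1
      have e2 : u ^ p ^ (k + k') = 1 := by
        rw [add_comm, pow_add, pow_mul, hk'', one_pow]
      rwa [e2, one_mul] at e1
    have h2 : m ^ r = 1 := hMe m hm
    have h3 : orderOf m = 1 := by
      have d1 := orderOf_dvd_of_pow_eq_one h1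
      have d2 := orderOf_dvd_of_pow_eq_one h2
      have c : (p ^ (k + k')).Coprime r :=
        Nat.Coprime.pow_left _ ((Nat.coprime_primes hpp hr).2 (Ne.symm hrp))
      exact Nat.eq_one_of_dvd_coprimes c d1 d2
    have h4 : m = 1 := orderOf_eq_one_iff.1 h3
    rw [haum, h4, mul_one]
    exact hu

/-- **Lemma c**, as normality. -/
theorem sylow_normal_of_pResidual_eq_top {X : Type u} [Group X] [Finite X] [Group.IsSolvable X]
    (hX : PAb p X) (hgen : pResidual p X = ⊤) (P : Sylow p X) : (P : Subgroup X).Normal := by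
  refine ⟨fun t ht g => ?_⟩
  obtain ⟨k, hk⟩ := P.isPGroup' ⟨t, ht⟩
  have hk' : t ^ p ^ k = 1 := congrArg Subtype.val hk
  refine mem_sylow_of_pow_eq_one _ rfl hX hgen P _ k ?_
  rw [conj_pow, hk']
  simp

/-- For solvable `X` with `PAb`: the `p`-elements of the residual form a normal `p`-subgroup. -/
theorem exists_residual_sylow {X : Type u} [Group X] [Finite X] [Group.IsSolvable X]
    (hX : PAb p X) :
    ∃ S : Subgroup X, S.Normal ∧ IsPGroup p S ∧ S ≤ pResidual p X ∧
      ∀ a ∈ pResidual p X, ∀ k : ℕ, a ^ p ^ k = 1 → a ∈ S := by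
  classical
  obtain ⟨P₀⟩ : Nonempty (Sylow p (pResidual p X)) := inferInstance
  have hsolv : Group.IsSolvable (pResidual p X) := inferInstance
  have hP : ∀ a ∈ pResidual p X, ∀ k : ℕ, a ^ p ^ k = 1 →
      a ∈ (P₀ : Subgroup (pResidual p X)).map (pResidual p X).subtype := by
    intro a ha k hak
    refine ⟨⟨a, ha⟩, ?_, rfl⟩
    refine mem_sylow_of_pow_eq_one _ rfl (hX.subgroup _) pResidual_pResidual P₀ _ k ?_
    apply Subtype.ext
    simpa using hak
  refine ⟨(P₀ : Subgroup (pResidual p X)).map (pResidual p X).subtype, ?_, P₀.isPGroup'.map _, ?_, hP⟩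
  · refine ⟨fun t ht g => ?_⟩
    obtain ⟨t', ht', rfl⟩ := ht
    obtain ⟨k, hk⟩ := P₀.isPGroup' ⟨t', ht'⟩
    have hk' : t' ^ p ^ k = 1 := congrArg Subtype.val hk
    refine hP _ ?_ k ?_
    · exact (inferInstance : (pResidual p X).Normal).conj_mem _ t'.2 g
    · rw [conj_pow]
      have : ((t' : X)) ^ p ^ k = 1 := by
        have := congrArg Subtype.val hk'
        simpa using this
      simp [this]
  · rintro _ ⟨t, -, rfl⟩
    exact t.2

end lemmaC

end Cfsg.Agent.Lib.Blk89.PAb0
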