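import Mathlib
import Cfsg.Agent.Lib.Blk89.PAb0

/-!
# Eigenvectors of automorphisms of exponent dividing `p - 1`; `SL₂(p)` fails `PAb`
-/

set_option autoImplicit false
set_option linter.style.haveILetI false

namespace Cfsg.Agent.Lib.Blk89.PAb1

open Subgroup Cfsg Polynomial Cfsg.Agent.Lib.Blk89.PAb0

variable {p : ℕ}

theorem exists_eigen_add {p : ℕ} [hp : Fact p.Prime] {V : Type*} [AddCommGroup V] [Module (ZMod p) V] [Finite V]
    [Nontrivial V] (T : Module.End (ZMod p) V) (hT : T ^ (p - 1) = 1) :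
    ∃ (c : ZMod p) (v : V), v ≠ 0 ∧ T v = c • v := by
  classical
  haveI : Module.Finite (ZMod p) V := Module.Finite.of_finite
  have hint : IsIntegral (ZMod p) T := Algebra.IsIntegral.isIntegral T
  have hdeg := minpoly.natDegree_pos hint
  have hf : aeval T (X ^ p - X : (ZMod p)[X]) = 0 := by
    have h1 : T ^ p = T := by
      have h2 : T ^ p = T ^ (p - 1) * T := by
        rw [← pow_succ, Nat.sub_add_cancel hp.out.one_lt.le]
      rw [h2, hT, one_mul]
    simp [h1]
  have hdvd := minpoly.dvd (ZMod p) T hf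
  have hsplit : (X ^ p - X : (ZMod p)[X]).Splits := by
    have := FiniteField.splits_X_pow_card_sub_X (p := p) (K := ZMod p)
    simpa [ZMod.card] using this
  have hs : (minpoly (ZMod p) T).Splits :=
    hsplit.of_dvd (FiniteField.X_pow_card_sub_X_ne_zero _ hp.out.one_lt) hdvd
  obtain ⟨μ, hμ⟩ := hs.exists_eval_eq_zero (by
    intro h
    rw [Polynomial.degree_eq_natDegree (minpoly.ne_zero hint)] at h
    have h3 : (minpoly (ZMod p) T).natDegree = 0 := by exact_mod_cast h
    omega)
  have hev : T.HasEigenvalue μ := Module.End.hasEigenvalue_of_isRoot hμ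
  obtain ⟨v, hv⟩ := hev.exists_hasEigenvector
  exact ⟨μ, v, hv.2, hv.apply_eq_smul⟩

theorem exists_eigen_mul_aux {p : ℕ} [hp : Fact p.Prime] {E : Type*} [CommGroup E] [Finite E]
    [Nontrivial E] [Module (ZMod p) (Additive E)] (φ : E →* E) (hφ : ∀ x, φ^[p - 1] x = x) :
    ∃ (c : ℕ) (x : E), x ≠ 1 ∧ φ x = x ^ c := by
  classical
  let φ' : Additive E →+ Additive E := MonoidHom.toAdditive φ
  let T : Module.End (ZMod p) (Additive E) := AddMonoidHom.toZModLinearMap p φ'
  have hiter : ∀ (n : ℕ) (v : Additive E), (T ^ n) v = Additive.ofMul (φ^[n] (Additive.toMul v)) := by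
    intro n v
    induction n generalizing v with
    | zero => rfl
    | succ n ih =>
      rw [pow_succ, Module.End.mul_apply, ih, Function.iterate_succ_apply]
      rfl
  have hT : T ^ (p - 1) = 1 := by
    ext v
    rw [hiter, hφ]
    rfl
  obtain ⟨c, v, hv, hvc⟩ := exists_eigen_add T hT
  refine ⟨c.val, Additive.toMul v, fun h => hv (by simpa using h), ?_⟩
  have h1 : T v = Additive.ofMul (φ (Additive.toMul v)) := rfl
  rw [h1] at hvc
  have h2 : c • v = c.val • v := by
    conv_lhs => rw [← ZMod.natCast_zmod_val c]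
    exact Nat.cast_smul_eq_nsmul _ _ _
  rw [h2] at hvc
  have := congrArg Additive.toMul hvc
  simpa using this

/-- Multiplicative version. -/
theorem exists_eigen_mul {p : ℕ} [hp : Fact p.Prime] {E : Type*} [CommGroup E] [Finite E]
    [Nontrivial E] (hE : ∀ x : E, x ^ p = 1) (φ : E →* E) (hφ : ∀ x, φ^[p - 1] x = x) :
    ∃ (c : ℕ) (x : E), x ≠ 1 ∧ φ x = x ^ c := by
  have hV : ∀ v : Additive E, p • v = 0 := fun v => by
    change Additive.ofMul ((Additive.toMul v) ^ p) = 0
    rw [hE]; rfl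
  letI : Module (ZMod p) (Additive E) := AddCommGroup.zmodModule hV
  exact exists_eigen_mul_aux φ hφ

lemma isPGroup_zpowers_of_pow_four {G : Type*} [Group G] [Finite G] {x : G} (hx : x ^ 4 = 1) :
    IsPGroup 2 (zpowers x) := by
  rw [IsPGroup.iff_card, Nat.card_zpowers]
  have h1 : orderOf x ∣ 2 ^ 2 := orderOf_dvd_of_pow_eq_one (by simpa using hx)
  obtain ⟨k, -, hk⟩ := (Nat.dvd_prime_pow Nat.prime_two).1 h1
  exact ⟨k, hk⟩

theorem sl2_not_PAb [hp : Fact p.Prime] (hp2 : p ≠ 2) :
    ¬ PAb p (Matrix.SpecialLinearGroup (Fin 2) (ZMod p)) := by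
  intro h
  obtain ⟨a, b, hab⟩ := ZMod.sq_add_sq p (-1 : ZMod p)
  set I : Matrix (Fin 2) (Fin 2) (ZMod p) := !![0, -1; 1, 0] with hI
  set J : Matrix (Fin 2) (Fin 2) (ZMod p) := !![a, b; b, -a] with hJ
  have hdI : I.det = 1 := by simp [hI, Matrix.det_fin_two]
  have hdJ : J.det = 1 := by
    rw [hJ, Matrix.det_fin_two]
    simp only [Matrix.of_apply, Matrix.cons_val', Matrix.cons_val_zero, Matrix.cons_val_one,
      Matrix.cons_val_fin_one]
    linear_combination -hab
  let i : Matrix.SpecialLinearGroup (Fin 2) (ZMod p) := ⟨I, hdI⟩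
  let j : Matrix.SpecialLinearGroup (Fin 2) (ZMod p) := ⟨J, hdJ⟩
  have hII : I * I = -1 := by
    ext u v
    fin_cases u <;> fin_cases v <;> simp [hI, Matrix.mul_apply, Fin.sum_univ_two]
  have hJJ : J * J = -1 := by
    ext u v
    fin_cases u <;> fin_cases v <;> simp [hJ, Matrix.mul_apply, Fin.sum_univ_two]
    · linear_combination hab
    · ring
    · ring
    · linear_combination hab
  have hIJI : I * J * I = J := by
    ext u v
    fin_cases u <;> fin_cases v <;> simp [hI, hJ, Matrix.mul_apply, Fin.sum_univ_two]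
  have hi4 : i ^ 4 = 1 := by
    have e : i ^ 4 = (i * i) * (i * i) := by simp only [pow_succ, pow_zero, one_mul, mul_assoc]
    rw [e]
    apply Subtype.ext
    change (I * I) * (I * I) = 1
    rw [hII]; simp
  have hj4 : j ^ 4 = 1 := by
    have e : j ^ 4 = (j * j) * (j * j) := by simp only [pow_succ, pow_zero, one_mul, mul_assoc]
    rw [e]
    apply Subtype.ext
    change (J * J) * (J * J) = 1
    rw [hJJ]; simp
  have hiji : i * j * i = j := by
    apply Subtype.ext
    exact hIJI
  have hconj : j * i * j⁻¹ = i⁻¹ := by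
    have : j * i = i⁻¹ * j := by
      rw [eq_inv_mul_iff_mul_eq, ← mul_assoc, hiji]
    rw [this]; group
  have hPi := isPGroup_zpowers_of_pow_four hi4
  have hPj := isPGroup_zpowers_of_pow_four hj4
  have hnorm : zpowers j ≤ normalizer (zpowers i : Set _) := by
    rw [Subgroup.zpowers_le, Subgroup.mem_normalizer_iff_map_conj_eq, MonoidHom.map_zpowers]
    change zpowers (j * i * j⁻¹) = _
    rw [hconj, Subgroup.zpowers_inv]
  have hP2 : IsPGroup 2 (zpowers i ⊔ zpowers j : Subgroup _) :=
    IsPGroup.to_sup_of_normal_left' hPi hPj hnorm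
  have hc : (Nat.card (zpowers i ⊔ zpowers j : Subgroup _)).Coprime p := by
    obtain ⟨k, hk⟩ := IsPGroup.iff_card.1 hP2
    rw [hk]
    exact Nat.Coprime.pow_left _ ((Nat.coprime_primes Nat.prime_two hp.out).2 (Ne.symm hp2))
  have hcomm := h.comm hc (a := i) (b := j) (mem_sup_left (mem_zpowers i))
    (mem_sup_right (mem_zpowers j))
  have hm : I * J = J * I := congrArg Subtype.val hcomm
  have h2 : (2 : ZMod p) ≠ 0 := by
    intro h20
    have : ((2 : ℕ) : ZMod p) = 0 := by exact_mod_cast h20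
    rw [ZMod.natCast_eq_zero_iff] at this
    exact hp2 ((Nat.prime_dvd_prime_iff_eq hp.out Nat.prime_two).1 this)
  have e00 := congrFun (congrFun hm 0) 0
  have e01 := congrFun (congrFun hm 0) 1
  simp [hI, hJ, Matrix.mul_apply, Fin.sum_univ_two] at e00 e01
  have ha : a = 0 := by
    have : 2 * a = 0 := by linear_combination e01
    exact (mul_eq_zero.1 this).resolve_left h2
  have hb : b = 0 := by
    have : 2 * b = 0 := by linear_combination -e00
    exact (mul_eq_zero.1 this).resolve_left h2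
  rw [ha, hb] at hab
  simp at hab

theorem hfree_of_PAb [hp : Fact p.Prime] (hp2 : p ≠ 2) {G : Type*} [Group G] [Finite G] (h : PAb p G) :
    ¬ ∃ (H K : Subgroup G) (hK : (K.subgroupOf H).Normal),
      Nonempty ((H ⧸ K.subgroupOf H) ≃* Matrix.SpecialLinearGroup (Fin 2) (ZMod p)) := by
  rintro ⟨H, K, hK, ⟨e⟩⟩
  have h1 : PAb p H := h.subgroup H
  have h2 : PAb p (H ⧸ K.subgroupOf H) := h1.of_surjective _ (QuotientGroup.mk'_surjective _)
  exact sl2_not_PAb hp2 (h2.of_injective e.symm.toMonoidHom e.symm.injective)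


end Cfsg.Agent.Lib.Blk89.PAb1
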